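import Cfsg.Agent.SolvableEmbed.Ramified
import Cfsg.Prelude.Def_Blocks
import Cfsg.Agent.Eq.Def_Blocks

/-!
# Characters fully ramified over the centre
-/

set_option autoImplicit false

namespace CfsgLib.SolvableEmbed

open Cfsg CfsgLib.Chars CfsgLib.Chars.Induced
open scoped commutatorElement ComplexConjugate

universe u

variable {X : Type u} [Group X] [Fintype X]

/-- If the centre has a faithful linear character and each noncentral element has a nontrivial
central commutator, there is a faithful fully ramified irreducible character. -/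
theorem exists_fully_ramified (l : Subgroup.center X →* ℂˣ) (hl : Function.Injective l)
    (hg : ∀ g, g ∉ Subgroup.center X → ∃ h, ⁅g, h⁆ ∈ Subgroup.center X ∧ ⁅g, h⁆ ≠ 1) :
    ∃ χ : IrrCharacter X, (∀ g : X, (χ : X → ℂ) g = (χ : X → ℂ) 1 → g = 1) ∧
      charDegree (χ : X → ℂ) ^ 2 = (Subgroup.center X).index := by
  classical
  let θ : IrrCharacter (Subgroup.center X) := linChar l
  have hne : indFun (Subgroup.center X) (θ : Subgroup.center X → ℂ) ≠ 0 := fun h => by
    have h1 := congrFun h 1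
    rw [indFun_one_apply] at h1
    simp [θ, Subgroup.index_ne_zero_of_finite] at h1
  obtain ⟨χ, hχ⟩ := exists_mult_ne_zero (isCharacter_indFun _ (isCharacter_coe θ)) hne
  rw [mult_indFun_irr, mult_ne_zero_iff (isCharacter_restrict (isCharacter_coe χ) _)] at hχ
  have hd0 := map_one_ne_zero χ
  -- the scalars
  have hsc : ∀ z : Subgroup.center X, ∃ c : ℂ, ∀ g, (χ : X → ℂ) (z * g) = c * (χ : X → ℂ) g :=
    fun z => exists_scalar_of_mem_center χ z.2
  choose c hc using hsc
  have hc1 : ∀ z : Subgroup.center X, (χ : X → ℂ) z = c z * (χ : X → ℂ) 1 := fun z => by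
    rw [← hc z 1, mul_one]
  have hmul : ∀ a b, c (a * b) = c a * c b := fun a b => by
    apply mul_right_cancel₀ hd0
    rw [← hc, mul_one, mul_assoc, ← hc1, ← hc a b]
    rfl
  have hone : c 1 = 1 := by
    apply mul_right_cancel₀ hd0
    rw [← hc1, one_mul]
    rfl
  have hcl : ∀ z, c z = l z := by
    by_contra hex
    obtain ⟨z0, hz0⟩ := not_forall.1 hex
    apply hχ
    have key : ∑ z : Subgroup.center X, (χ : X → ℂ) z * conj ((θ : _ → ℂ) z) = 0 := by
      let f : Subgroup.center X → ℂ := fun z => (χ : X → ℂ) z * conj ((θ : _ → ℂ) z)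
      have hf : ∀ z, f (z0 * z) = (c z0 * conj (l z0 : ℂ)) * f z := fun z => by
        simp only [f, θ, linChar_apply, map_mul, Units.val_mul, Subgroup.coe_mul, hc z0]
        ring
      have hk : c z0 * conj (l z0 : ℂ) ≠ 1 := by
        intro h
        apply hz0
        have hinv : conj (l z0 : ℂ) = (l z0 : ℂ)⁻¹ := by
          have := conj_eq_map_inv (isCharacter_coe θ) z0
          simp only [θ, linChar_apply, map_inv, Units.val_inv_eq_inv_val] at this
          exact this
        rw [hinv] at h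
        field_simp at h
        exact h
      have hs : ∑ z, f z = (c z0 * conj (l z0 : ℂ)) * ∑ z, f z := by
        rw [Finset.mul_sum, ← Finset.sum_congr rfl fun z _ => hf z]
        exact (Equiv.sum_comp (Equiv.mulLeft z0) f).symm
      exact (mul_eq_zero.1 (by rw [sub_mul, one_mul, ← hs, sub_self] :
        (1 - c z0 * conj (l z0 : ℂ)) * ∑ z, f z = 0)).resolve_left (sub_ne_zero.2 (Ne.symm hk))
    simp only [classInner]
    rw [key, mul_zero]
  -- vanishing
  have hvan : ∀ g, g ∉ Subgroup.center X → (χ : X → ℂ) g = 0 := by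
    intro g hgz
    obtain ⟨h, hmem, hne1⟩ := hg g hgz
    have h1 : (χ : X → ℂ) (⁅g, h⁆ * (h * g * h⁻¹)) = c ⟨_, hmem⟩ * (χ : X → ℂ) (h * g * h⁻¹) :=
      hc ⟨_, hmem⟩ _
    have h2 : ⁅g, h⁆ * (h * g * h⁻¹) = g := by simp [commutatorElement_def, mul_assoc]
    rw [h2, isClassFunction_coe χ g h, hcl] at h1
    by_contra h0
    apply hne1
    have h3 : (l ⟨_, hmem⟩ : ℂ) = 1 := (mul_eq_right₀ h0).1 h1.symm
    have h4 : (⟨_, hmem⟩ : Subgroup.center X) = 1 := hl (by rw [Units.val_eq_one.1 h3, map_one])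
    exact congrArg Subtype.val h4
  refine ⟨χ, fun g hgd => ?_, ?_⟩
  · by_cases hgz : g ∈ Subgroup.center X
    · have h1 := hc1 ⟨g, hgz⟩
      rw [hcl] at h1
      simp only at h1
      rw [hgd] at h1
      have h3 : (l ⟨g, hgz⟩ : ℂ) = 1 := (mul_eq_right₀ hd0).1 h1.symm
      exact congrArg Subtype.val
        (hl (by rw [Units.val_eq_one.1 h3, map_one]) : (⟨g, hgz⟩ : Subgroup.center X) = 1)
    · rw [hvan g hgz] at hgd
      exact absurd hgd.symm hd0
  · have h := sum_mul_map_inv χ χ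
    rw [if_pos rfl, ← Finset.sum_filter_add_sum_filter_not Finset.univ (· ∈ Subgroup.center X)] at h
    have h2 : ∀ g ∈ Finset.univ.filter (fun g => ¬ g ∈ Subgroup.center X),
        (χ : X → ℂ) g * (χ : X → ℂ) g⁻¹ = 0 := fun g hg' => by
      rw [hvan g (Finset.mem_filter.1 hg').2, zero_mul]
    have h3 : ∀ g ∈ Finset.univ.filter (fun g => g ∈ Subgroup.center X),
        (χ : X → ℂ) g * (χ : X → ℂ) g⁻¹ = (charDegree (χ : X → ℂ) : ℂ) ^ 2 := fun g hg' => by
      have hgz := (Finset.mem_filter.1 hg').2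
      have h1 := hc1 ⟨g, hgz⟩
      have h1' : (χ : X → ℂ) g⁻¹ = c ⟨g, hgz⟩⁻¹ * (χ : X → ℂ) 1 := hc1 (⟨g, hgz⟩⁻¹)
      simp only at h1
      rw [h1, h1', mul_mul_mul_comm, ← hmul, mul_inv_cancel, hone, coe_charDegree]
      ring
    rw [Finset.sum_eq_zero h2, add_zero, Finset.sum_congr rfl h3, Finset.sum_const, nsmul_eq_mul,
      ← Fintype.card_subtype, ← Nat.card_eq_fintype_card] at h
    norm_cast at h
    rw [← (Subgroup.center X).card_mul_index] at h
    exact Nat.eq_of_mul_eq_mul_left Nat.card_pos h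

theorem exists_fully_ramified_of_ram {n : ℕ} {M : Type u} [Group M] [Finite M]
    (hM : Ram n M) :
    ∃ (H : Type u) (_ : Group H) (_ : Finite H) (χ : IrrCharacter H),
      (∀ h : H, (χ : H → ℂ) h = (χ : H → ℂ) 1 → h = 1) ∧
      charDegree (χ : H → ℂ) ^ 2 = (Subgroup.center H).index ∧
      Nat.card (Subgroup.center H) = Nat.card (rootsOfUnity n ℂ) ∧
      (∀ q, q.Prime → q ∣ Nat.card H → q ∣ n) ∧
      ∃ f : M →* H ⧸ Subgroup.center H, Function.Injective f := by
  obtain ⟨H, gH, fH, π, ι, hπ, hι, hH, hinv, hgood⟩ := hM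
  let K : Subgroup H := ι.ker.map π.ker.subtype
  have hKn : K.Normal := ⟨by
    rintro _ ⟨z, hz, rfl⟩ g
    have hm : g * (z : H) * g⁻¹ ∈ π.ker := (inferInstance : π.ker.Normal).conj_mem _ z.2 g
    exact ⟨⟨_, hm⟩, MonoidHom.mem_ker.2 ((hinv g z ⟨_, hm⟩ rfl).trans hz), rfl⟩⟩
  have hKle : K ≤ π.ker := Subgroup.map_subtype_le _
  have hmemK : ∀ (x : H) (hx : x ∈ π.ker), x ∈ K ↔ ι ⟨x, hx⟩ = 1 := by
    intro x hx
    constructor
    · rintro ⟨z, hz, hzx⟩
      rwa [show (⟨x, hx⟩ : π.ker) = z from Subtype.ext hzx.symm]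
    · exact fun h => ⟨_, MonoidHom.mem_ker.2 h, rfl⟩
  let mk := QuotientGroup.mk' K
  have hmk : Function.Surjective mk := QuotientGroup.mk'_surjective K
  have hcomm : ∀ g h : H, ⁅mk g, mk h⁆ = mk ⁅g, h⁆ := fun g h => (map_commutatorElement mk g h).symm
  have hcen : ∀ x : H, mk x ∈ Subgroup.center (H ⧸ K) ↔ x ∈ π.ker := by
    intro x
    constructor
    · intro hx
      by_contra hnot
      obtain ⟨h, hc, hne⟩ := hgood x hnot
      apply hne
      apply (hmemK _ hc).1
      apply (QuotientGroup.eq_one_iff _).1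
      show mk ⁅x, h⁆ = 1
      rw [← hcomm, commutatorElement_eq_one_iff_mul_comm]
      exact (Subgroup.mem_center_iff.1 hx (mk h)).symm
    · intro hx
      rw [Subgroup.mem_center_iff]
      intro y
      obtain ⟨h, rfl⟩ := hmk y
      refine (commutatorElement_eq_one_iff_mul_comm.1 ?_)
      rw [hcomm]
      have hm : h * x * h⁻¹ ∈ π.ker := (inferInstance : π.ker.Normal).conj_mem _ hx h
      have hc : ⁅h, x⁆ ∈ π.ker := by
        rw [commutatorElement_def]; exact mul_mem hm (inv_mem hx)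
      refine (QuotientGroup.eq_one_iff _).2 ((hmemK _ hc).2 ?_)
      rw [show (⟨_, hc⟩ : π.ker) = ⟨_, hm⟩ * ⟨x, hx⟩⁻¹ from Subtype.ext (commutatorElement_def h x),
        map_mul, map_inv, hinv h ⟨x, hx⟩ ⟨_, hm⟩ rfl, mul_inv_cancel]
  -- the linear character of the centre
  let r : π.ker →* Subgroup.center (H ⧸ K) :=
    (mk.comp π.ker.subtype).codRestrict _ fun x => (hcen x).2 x.2
  have hr : Function.Surjective r := fun y => by
    obtain ⟨x, hx⟩ := hmk y
    exact ⟨⟨x, (hcen x).1 (hx ▸ y.2)⟩, Subtype.ext hx⟩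
  have hrk : r.ker = ι.ker := by
    ext x
    rw [MonoidHom.mem_ker, MonoidHom.mem_ker, ← hmemK (x : H) x.2, ← QuotientGroup.eq_one_iff,
      ← OneMemClass.coe_eq_one]
    · rfl
  let e1 := QuotientGroup.quotientKerEquivOfSurjective r hr
  let e2 := QuotientGroup.quotientKerEquivRange ι
  let E : Subgroup.center (H ⧸ K) ≃* ι.range :=
    e1.symm.trans ((QuotientGroup.quotientMulEquivOfEq hrk).trans e2)
  let l : Subgroup.center (H ⧸ K) →* ℂˣ := ι.range.subtype.comp E.toMonoidHom
  have : Fintype (H ⧸ K) := Fintype.ofFinite _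
  obtain ⟨χ, h1, h2⟩ := exists_fully_ramified l (Subtype.val_injective.comp E.injective) (by
    intro g hg
    obtain ⟨x, rfl⟩ := hmk g
    rw [hcen] at hg
    obtain ⟨h, hc, hne⟩ := hgood x hg
    refine ⟨mk h, ?_, ?_⟩
    · rw [hcomm]; exact (hcen _).2 hc
    · rw [hcomm]
      exact fun he => hne ((hmemK _ hc).1 ((QuotientGroup.eq_one_iff _).1 he)))
  refine ⟨H ⧸ K, inferInstance, inferInstance, χ, h1, h2, ?_,
    fun q hq hd => hH q hq (hd.trans (Subgroup.card_quotient_dvd_card K)), ?_⟩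
  · rw [Nat.card_congr E.toEquiv, hι]
  · let φ : H →* (H ⧸ K) ⧸ Subgroup.center (H ⧸ K) := (QuotientGroup.mk' _).comp mk
    have hφ : φ.ker = π.ker := by
      ext x
      rw [MonoidHom.mem_ker, ← hcen x]
      exact QuotientGroup.eq_one_iff _
    refine ⟨π.liftOfSurjective hπ ⟨φ, hφ.ge⟩, ?_⟩
    rw [injective_iff_map_eq_one]
    intro m hm
    obtain ⟨x, rfl⟩ := hπ m
    rw [MonoidHom.liftOfRightInverse_comp_apply] at hm
    exact MonoidHom.mem_ker.1 (hφ ▸ MonoidHom.mem_ker.2 hm)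

end CfsgLib.SolvableEmbed
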