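import Mathlib.GroupTheory.RegularWreathProduct
import Mathlib.GroupTheory.Solvable
import Mathlib.GroupTheory.SpecificGroups.Cyclic
import Mathlib.GroupTheory.Abelianization.Defs
import Mathlib.Tactic

/-!
# The embedding of Kaloujnine and Krasner, and induction along solvable groups
-/

set_option autoImplicit false

namespace CfsgLib.SolvableEmbed

set_option linter.style.haveILetI false
open scoped commutatorElement

universe u v

variable {G Q : Type*} [Group G] [Group Q]

/-- The Kaloujnine-Krasner map of an extension with a chosen section. -/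
def krasner (π : G →* Q) (s : Q → G) (hs : ∀ q, π (s q) = q) : G →* π.ker ≀ᵣ Q where
  toFun g := ⟨fun x => ⟨(s x)⁻¹ * g * s ((π g)⁻¹ * x), by
    simp [MonoidHom.mem_ker, hs, mul_assoc]⟩, π g⟩
  map_one' := by
    ext x <;> simp
  map_mul' g h := by
    ext x
    · simp [mul_assoc]
    · simp

theorem krasner_injective (π : G →* Q) (s : Q → G) (hs : ∀ q, π (s q) = q) :
    Function.Injective (krasner π s hs) := by
  rw [injective_iff_map_eq_one]
  intro g hg
  rw [← conj_eq_one_iff (a := (s 1)⁻¹)]
  have h1 : π g = 1 := congrArg RegularWreathProduct.right hg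
  have h2 := congrArg Subtype.val (congrFun (congrArg RegularWreathProduct.left hg) 1)
  simpa [krasner, h1] using h2

/-- Functoriality of the wreath product in the bottom group. -/
def wreathMap {D E : Type*} [Group D] [Group E] (f : D →* E) : D ≀ᵣ Q →* E ≀ᵣ Q where
  toFun w := ⟨fun x => f (w.left x), w.right⟩
  map_one' := by ext x <;> simp
  map_mul' a b := by ext x <;> simp

@[simp]
theorem wreathMap_left {D E : Type*} [Group D] [Group E] (f : D →* E) (w : D ≀ᵣ Q) (x : Q) :
    (wreathMap f w).left x = f (w.left x) := rfl

@[simp]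
theorem wreathMap_right {D E : Type*} [Group D] [Group E] (f : D →* E) (w : D ≀ᵣ Q) :
    (wreathMap f w).right = w.right := rfl

theorem wreathMap_injective {D E : Type*} [Group D] [Group E] {f : D →* E}
    (hf : Function.Injective f) : Function.Injective (wreathMap (Q := Q) f) := by
  intro a b h
  ext x
  · exact hf (congrFun (congrArg RegularWreathProduct.left h) x)
  · simpa using congrArg RegularWreathProduct.right h

/-- A nontrivial finite solvable group maps onto a group of prime order. -/
theorem exists_prime_quotient {G : Type*} [Group G] [Finite G] [Nontrivial G]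
    (hs : Group.IsSolvable G) :
    ∃ p : ℕ, p.Prime ∧ p ∣ Nat.card G ∧
      ∃ π : G →* Multiplicative (ZMod p), Function.Surjective π := by
  obtain ⟨K, hK, hle⟩ := (eq_top_or_exists_le_coatom (commutator G)).resolve_left
    (hs.commutator_lt_top_of_nontrivial G).ne
  have hn : K.Normal := ⟨fun a ha g => by
    have := K.mul_mem (hle (Subgroup.commutator_mem_commutator (Subgroup.mem_top g)
      (Subgroup.mem_top a) : ⁅g, a⁆ ∈ commutator G)) ha
    simpa [commutatorElement_def, mul_assoc] using this⟩
  have : IsSimpleGroup (G ⧸ K) := by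
    have : Nontrivial (G ⧸ K) := by
      rw [← not_subsingleton_iff_nontrivial, QuotientGroup.subsingleton_iff]
      exact hK.1
    refine ⟨fun H hH => ?_⟩
    rcases hK.le_iff.1 (QuotientGroup.le_comap_mk' K H) with h | h
    · exact .inr (Subgroup.comap_injective (QuotientGroup.mk'_surjective K)
        (h.trans (Subgroup.comap_top _).symm))
    · exact .inl (Subgroup.comap_injective (QuotientGroup.mk'_surjective K)
        (by rw [h, MonoidHom.comap_bot, QuotientGroup.ker_mk']))
  have hc : ∀ a b : G ⧸ K, a * b = b * a := by
    rintro ⟨a⟩ ⟨b⟩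
    refine QuotientGroup.eq.2 (hle ?_)
    have : _ ∈ commutator G := Subgroup.commutator_mem_commutator (Subgroup.mem_top b⁻¹) (Subgroup.mem_top a⁻¹)
    rw [commutatorElement_def] at this
    simpa [mul_assoc] using this
  letI : CommGroup (G ⧸ K) := { mul_comm := hc }
  have hp : (Nat.card (G ⧸ K)).Prime := IsSimpleGroup.prime_card
  haveI := Fact.mk hp
  let e : G ⧸ K ≃* Multiplicative (ZMod (Nat.card (G ⧸ K))) :=
    mulEquivOfPrimeCardEq rfl (by simp)
  exact ⟨_, hp, Subgroup.card_quotient_dvd_card K, e.toMonoidHom.comp (QuotientGroup.mk' K),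
    e.surjective.comp (QuotientGroup.mk'_surjective K)⟩

/-- Induction along solvable groups: a property closed under passing from the bottom group to
regular wreath products with groups of prime order holds with an embedding. -/
theorem exists_embedding
    (P : ∀ (n : ℕ) (M : Type u) [Group M], Prop)
    (n : ℕ)
    (h1 : P n PUnit.{u + 1})
    (hstep : ∀ (M : Type u) [Group M] [Finite M] (p : ℕ), p.Prime → p ∣ n → P n M →
      ∃ (M' : Type u) (_ : Group M') (_ : Finite M'), P n M' ∧
        ∃ f : M ≀ᵣ Multiplicative (ZMod p) →* M', Function.Injective f)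
    (G : Type u) [Group G] [Finite G] (hs : Group.IsSolvable G)
    (hdvd : ∀ p, p.Prime → p ∣ Nat.card G → p ∣ n) :
    ∃ (M : Type u) (_ : Group M) (_ : Finite M), P n M ∧
      ∃ f : G →* M, Function.Injective f := by
  induction hc : Nat.card G using Nat.strong_induction_on generalizing G with
  | _ c ih =>
    subst hc
    rcases subsingleton_or_nontrivial G with hG | hG
    · exact ⟨_, _, inferInstance, h1, 1, Function.injective_of_subsingleton _⟩
    obtain ⟨p, hp, hpd, π, hπ⟩ := exists_prime_quotient hs
    haveI := Fact.mk hp
    have hlt : Nat.card π.ker < Nat.card G := by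
      have h := π.ker.card_mul_index
      rw [Subgroup.index_ker, MonoidHom.range_eq_top.2 hπ, Subgroup.card_top] at h
      rw [← h]
      exact lt_mul_of_one_lt_right Nat.card_pos Finite.one_lt_card
    obtain ⟨M, gM, fM, hM, f, hf⟩ := ih _ hlt π.ker inferInstance
      (fun q hq hd => hdvd q hq (hd.trans π.ker.card_subgroup_dvd_card)) rfl
    obtain ⟨M', gM', fM', hM', f', hf'⟩ := hstep M p hp (hdvd p hp hpd) hM
    refine ⟨M', gM', fM', hM', f'.comp ((wreathMap f).comp
      (krasner π (Function.surjInv hπ) (Function.surjInv_eq hπ))), ?_⟩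
    exact hf'.comp ((wreathMap_injective hf).comp (krasner_injective _ _ _))

end CfsgLib.SolvableEmbed
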