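import Mathlib.Algebra.Group.Hom.Basic
import Mathlib.Algebra.Group.Ext
import Mathlib.Data.Finite.Prod
import Mathlib.SetTheory.Cardinal.Finite
import Mathlib.Tactic.Abel

/-!
# A Heisenberg-type extension

From a pairing `e : J →* W →* C` into a commutative group, the group on `W × C × J` in which the
commutator of `J` with `W` is `e`.
-/

set_option autoImplicit false

namespace CfsgLib.SolvableEmbed

universe u v w

variable {W : Type u} {C : Type v} {J : Type w} [Group W] [CommGroup C] [Group J]

/-- The underlying type of the extension. -/
@[ext]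
structure Twist (e : J →* W →* C) where
  /-- The first component. -/
  base : W
  /-- The central component. -/
  cst : C
  /-- The acting component. -/
  act : J

namespace Twist

variable {e : J →* W →* C}

instance : Mul (Twist e) where
  mul a b := ⟨a.base * b.base, a.cst * b.cst * e a.act b.base, a.act * b.act⟩

instance : One (Twist e) where one := ⟨1, 1, 1⟩

instance : Inv (Twist e) where
  inv a := ⟨a.base⁻¹, a.cst⁻¹ * e a.act a.base, a.act⁻¹⟩

@[simp] theorem mul_base (a b : Twist e) : (a * b).base = a.base * b.base := rfl
@[simp] theorem mul_cst (a b : Twist e) : (a * b).cst = a.cst * b.cst * e a.act b.base := rfl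
@[simp] theorem mul_act (a b : Twist e) : (a * b).act = a.act * b.act := rfl
@[simp] theorem one_base : (1 : Twist e).base = 1 := rfl
@[simp] theorem one_cst : (1 : Twist e).cst = 1 := rfl
@[simp] theorem one_act : (1 : Twist e).act = 1 := rfl
@[simp] theorem inv_base (a : Twist e) : a⁻¹.base = a.base⁻¹ := rfl
@[simp] theorem inv_cst (a : Twist e) : a⁻¹.cst = a.cst⁻¹ * e a.act a.base := rfl
@[simp] theorem inv_act (a : Twist e) : a⁻¹.act = a.act⁻¹ := rfl

instance : Group (Twist e) where
  mul_assoc a b c := by
    ext <;> simp only [mul_base, mul_cst, mul_act, map_mul, MonoidHom.mul_apply]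
    · exact mul_assoc _ _ _
    · simp only [mul_assoc, mul_comm, mul_left_comm]
    · exact mul_assoc _ _ _
  one_mul a := by ext <;> simp
  mul_one a := by ext <;> simp
  inv_mul_cancel a := by
    ext <;> simp

/-- The extension as a product type. -/
def equivProd (e : J →* W →* C) : Twist e ≃ W × C × J where
  toFun a := (a.base, a.cst, a.act)
  invFun a := ⟨a.1, a.2.1, a.2.2⟩
  left_inv _ := rfl
  right_inv _ := rfl

instance [Finite W] [Finite C] [Finite J] : Finite (Twist e) :=
  Finite.of_equiv _ (equivProd e).symm

theorem card : Nat.card (Twist e) = Nat.card W * (Nat.card C * Nat.card J) := by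
  rw [Nat.card_congr (equivProd e), Nat.card_prod, Nat.card_prod]

end Twist

end CfsgLib.SolvableEmbed
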