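import Cfsg.Agent.SolvableEmbed.Krasner
import Cfsg.Agent.SolvableEmbed.Twist
import Cfsg.Agent.Chars.Induced.Mult
import Cfsg.Agent.Chars.Induced.Rep
import Cfsg.Agent.Chars.Basic.Kernel
import Cfsg.Agent.Chars.Basic.Linear
import Mathlib.RingTheory.RootsOfUnity.AlgebraicallyClosed
import Mathlib.Analysis.Complex.Polynomial.Basic

/-!
# Fully ramified groups above a wreath tower

A group with a normal subgroup carrying an invariant linear character, such that each element
outside has a commutator inside on which the linear character is nontrivial; this property passes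
from a group to wreath products with groups of prime order.
-/

set_option autoImplicit false

namespace CfsgLib.SolvableEmbed

open Cfsg CfsgLib.Chars CfsgLib.Chars.Induced
open scoped commutatorElement ComplexConjugate

set_option linter.style.haveILetI false
set_option linter.unusedSimpArgs false

universe u

/-- `M` is the quotient of some group by a subgroup with a nondegenerate invariant linear
character whose values are all roots of unity of order dividing `n`. -/
def Ram (n : ℕ) (M : Type u) [Group M] : Prop :=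
  ∃ (H : Type u) (_ : Group H) (_ : Finite H) (π : H →* M) (ι : π.ker →* ℂˣ),
    Function.Surjective π ∧
    ι.range = rootsOfUnity n ℂ ∧
    (∀ q, q.Prime → q ∣ Nat.card H → q ∣ n) ∧
    (∀ (g : H) (z z' : π.ker), (z' : H) = g * z * g⁻¹ → ι z' = ι z) ∧
    ∀ g, g ∉ π.ker → ∃ h, ∃ hc : ⁅g, h⁆ ∈ π.ker, ι ⟨_, hc⟩ ≠ 1

theorem ram_punit (n : ℕ) [NeZero n] : Ram n PUnit.{u + 1} := by
  have hN : Nat.card (rootsOfUnity n ℂ) = n := Complex.card_rootsOfUnity n
  let H := ULift.{u} (rootsOfUnity n ℂ)
  let up : H ≃* rootsOfUnity n ℂ := MulEquiv.ulift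
  refine ⟨H, inferInstance, inferInstance, 1,
    ((rootsOfUnity n ℂ).subtype.comp up.toMonoidHom).comp (Subgroup.subtype _),
    fun x => ⟨1, Subsingleton.elim _ _⟩, ?_, ?_, ?_, ?_⟩
  · apply le_antisymm
    · rintro _ ⟨z, rfl⟩
      exact (up (z : H)).2
    · intro x hx
      exact ⟨⟨up.symm ⟨x, hx⟩, rfl⟩, by simp⟩
  · intro q _ hd
    rwa [Nat.card_congr up.toEquiv, hN] at hd
  · intro g z z' h
    simp only [MonoidHom.comp_apply, Subgroup.coe_subtype]
    rw [h, mul_comm g (z : H), mul_inv_cancel_right]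
  · intro g hg
    exact absurd (MonoidHom.mem_ker.2 (Subsingleton.elim _ _)) hg

section step

variable {p : ℕ} [Fact p.Prime]

/-- The pairing of the extension. -/
def pairing {H : Type u} [Group H] {C : Type} [CommGroup C]
    (ω : Multiplicative (ZMod p) →* C) :
    Multiplicative (ZMod p) →* H ≀ᵣ Multiplicative (ZMod p) →* C where
  toFun j :=
    { toFun := fun w => ω (Multiplicative.ofAdd (j.toAdd * w.right.toAdd))
      map_one' := by simp
      map_mul' := fun a b => by
        rw [← map_mul ω, ← ofAdd_add, ← mul_add]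
        congr 2 }
  map_one' := by ext w; simp
  map_mul' a b := by
    ext w
    rw [MonoidHom.mul_apply]
    show ω _ = ω _ * ω _
    rw [← map_mul ω, ← ofAdd_add, ← add_mul]
    congr 2

theorem exists_omega {n : ℕ} [NeZero n] (hp : p ∣ n) :
    ∃ ω : Multiplicative (ZMod p) →* rootsOfUnity n ℂ, Function.Injective ω := by
  have hc : IsCyclic (rootsOfUnity n ℂ) := inferInstance
  obtain ⟨g, hg⟩ := hc.exists_ofOrder_eq_natCard
  have hN : Nat.card (rootsOfUnity n ℂ) = n := Complex.card_rootsOfUnity n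
  obtain ⟨d, rfl⟩ := hp
  rw [hN] at hg
  have hd : d ≠ 0 := fun h => by simp [h] at hg; exact NeZero.ne (p * d) (by simp [h])
  have ho : orderOf (g ^ d) = p := by
    rw [orderOf_pow' g hd, hg, Nat.gcd_mul_left_left, Nat.mul_div_cancel _ (Nat.pos_of_ne_zero hd)]
  refine ⟨(Subgroup.subtype _).comp (mulEquivOfPrimeCardEq (G := Multiplicative (ZMod p))
    (G' := Subgroup.zpowers (g ^ d)) (p := p) (by simp) (by rw [Nat.card_zpowers, ho])).toMonoidHom,
    fun a b h => ?_⟩
  exact (MulEquiv.injective _) (Subtype.ext h)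

theorem ram_step {n : ℕ} [NeZero n] (M : Type u) [Group M] [Finite M] (hp : p ∣ n)
    (hM : Ram n M) :
    ∃ (M' : Type u) (_ : Group M') (_ : Finite M'), Ram n M' ∧
      ∃ f : M ≀ᵣ Multiplicative (ZMod p) →* M', Function.Injective f := by
  obtain ⟨H, gH, fH, π, ι, hπ, hι, hH, hinv, hgood⟩ := hM
  obtain ⟨ω, hω⟩ := exists_omega (p := p) hp
  have hN : Nat.card (rootsOfUnity n ℂ) = n := Complex.card_rootsOfUnity n
  let Q := Multiplicative (ZMod p)
  haveI : Fintype Q := Fintype.ofFinite _
  let e : Q →* H ≀ᵣ Q →* rootsOfUnity n ℂ := pairing ω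
  have he0 : ∀ (j : Q) (w : H ≀ᵣ Q), w.right = 1 → e j w = 1 := fun j w hw => by
    show ω _ = 1
    rw [hw]; simp
  have he1 : ∀ (j q : Q), j ≠ 1 → q ≠ 1 → ω (Multiplicative.ofAdd (j.toAdd * q.toAdd)) ≠ 1 := by
    intro j q hj hq h
    rw [← map_one ω] at h
    have h2 : j.toAdd * q.toAdd = 0 := congrArg Multiplicative.toAdd (hω h)
    rcases mul_eq_zero.1 h2 with h3 | h3
    · exact hj (toAdd_eq_zero.1 h3)
    · exact hq (toAdd_eq_zero.1 h3)
  let π' : Twist e →* (M ≀ᵣ Q) × Q :=
    { toFun := fun a => (wreathMap π a.base, a.act)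
      map_one' := by simp
      map_mul' := fun a b => by simp }
  have hker : ∀ {a : Twist e}, a ∈ π'.ker ↔
      (∀ x, a.base.left x ∈ π.ker) ∧ a.base.right = 1 ∧ a.act = 1 := by
    intro a
    rw [MonoidHom.mem_ker]
    constructor
    · intro h
      have h1 : wreathMap π a.base = 1 := congrArg Prod.fst h
      exact ⟨fun x => congrFun (congrArg RegularWreathProduct.left h1) x,
        (congrArg RegularWreathProduct.right h1 : a.base.right = 1), congrArg Prod.snd h⟩
    · rintro ⟨h1, h2, h3⟩
      refine Prod.ext ?_ h3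
      ext x
      · exact h1 x
      · exact h2
  let t : ∀ a : π'.ker, Q → π.ker := fun a x => ⟨(a : Twist e).base.left x, (hker.1 a.2).1 x⟩
  let ι' : π'.ker →* ℂˣ :=
    { toFun := fun a => ((a : Twist e).cst : ℂˣ) * ∏ x, ι (t a x)
      map_one' := by
        have : ∀ x, t 1 x = 1 := fun x => rfl
        simp [this]
      map_mul' := fun a b => by
        have h : ∀ x, t (a * b) x = t a x * t b x := fun x => Subtype.ext (by
          simp [t, (hker.1 a.2).2.1])
        have h2 : ((a * b : π'.ker) : Twist e).cst =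
            (a : Twist e).cst * (b : Twist e).cst := by
          simp [he0 _ _ (hker.1 b.2).2.1]
        simp only [h, map_mul, Finset.prod_mul_distrib, h2]
        push_cast
        rw [mul_mul_mul_comm] }
  have hιmem : ∀ z, ι z ∈ rootsOfUnity n ℂ := fun z => hι ▸ ⟨z, rfl⟩
  refine ⟨(M ≀ᵣ Q) × Q, inferInstance, inferInstance,
    ⟨Twist e, inferInstance, inferInstance, π', ι', ?_, ?_, ?_, ?_, ?_⟩,
    MonoidHom.inl _ _, fun a b h => congrArg Prod.fst h⟩
  · rintro ⟨w, j⟩
    refine ⟨⟨⟨fun x => Function.surjInv hπ (w.left x), w.right⟩, 1, j⟩, ?_⟩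
    refine Prod.ext ?_ rfl
    ext x
    · exact Function.surjInv_eq hπ _
    · rfl
  · apply le_antisymm
    · rintro _ ⟨a, rfl⟩
      exact mul_mem ((a : Twist e).cst).2 (prod_mem fun x _ => hιmem _)
    · intro c hc
      refine ⟨⟨⟨1, ⟨c, hc⟩, 1⟩, hker.2 ⟨fun x => π.ker.one_mem, rfl, rfl⟩⟩, ?_⟩
      have h1 : ∀ x, t ⟨⟨1, ⟨c, hc⟩, 1⟩, hker.2 ⟨fun x => π.ker.one_mem, rfl, rfl⟩⟩ x = 1 :=
        fun x => rfl
      show c * ∏ x, ι _ = c
      simp [h1]
  · intro q hq hd
    rw [Twist.card, RegularWreathProduct.card, hN] at hd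
    have hQ : Nat.card Q = p := (Nat.card_congr Multiplicative.toAdd).trans (Nat.card_zmod p)
    rw [hQ] at hd
    rcases (Nat.Prime.dvd_mul hq).1 hd with h | h
    · rcases (Nat.Prime.dvd_mul hq).1 h with h | h
      · exact hH q hq (hq.dvd_of_dvd_pow h)
      · exact h.trans hp
    · rcases (Nat.Prime.dvd_mul hq).1 h with h | h
      · exact h
      · exact h.trans hp
  · intro g z z' hz
    obtain ⟨hz1, hz2, hz3⟩ := hker.1 z.2
    have hzw : ∀ x, (z' : Twist e).base.left x = g.base.left x *
        (z : Twist e).base.left (g.base.right⁻¹ * x) * (g.base.left x)⁻¹ := by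
      intro x
      rw [hz]
      simp [hz2]
    have hc : (z' : Twist e).cst = (z : Twist e).cst := by
      rw [hz]
      have : e g.act (z : Twist e).base = 1 := he0 _ _ hz2
      simp only [Twist.mul_cst, Twist.inv_cst, Twist.inv_base, Twist.mul_act, Twist.inv_act, hz3, this, map_inv, mul_one]
      rw [mul_assoc, mul_inv_cancel_right, mul_right_comm, mul_inv_cancel, one_mul]
    show _ * ∏ x, ι (t z' x) = _ * ∏ x, ι (t z x)
    rw [hc]
    congr 1
    rw [Finset.prod_congr rfl fun x _ =>
      hinv (g.base.left x) (t z (g.base.right⁻¹ * x)) (t z' x) (hzw x)]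
    exact Equiv.prod_comp (Equiv.mulLeft g.base.right⁻¹) fun x => ι (t z x)
  · intro g hg
    by_cases hr : g.base.right = 1
    swap
    · have hY : Multiplicative.ofAdd (1 : ZMod p) ≠ 1 := fun h => by
        simpa using ofAdd_eq_one.1 h
      let h : Twist e := ⟨1, 1, Multiplicative.ofAdd 1⟩
      have hc : ⁅g, h⁆ ∈ π'.ker := hker.2 (by
        refine ⟨fun x => ?_, ?_, ?_⟩ <;> simp [h, commutatorElement_def])
      refine ⟨h, hc, ?_⟩
      have h1 : ∀ x, t ⟨_, hc⟩ x = 1 := fun x => Subtype.ext (by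
        simp [t, h, commutatorElement_def])
      show ((⁅g, h⁆ : Twist e).cst : ℂˣ) * ∏ x, ι (t ⟨_, hc⟩ x) ≠ 1
      simp only [h1, map_one, Finset.prod_const_one, mul_one, ne_eq, OneMemClass.coe_eq_one]
      intro h2
      apply he1 _ _ hY hr
      have h3 : (⁅g, h⁆ : Twist e).cst = (e (Multiplicative.ofAdd 1) g.base)⁻¹ := by
        simp [h, commutatorElement_def, mul_comm, mul_left_comm]
      rw [h3, inv_eq_one] at h2
      exact h2
    by_cases hl : ∀ x, g.base.left x ∈ π.ker
    · have ha : g.act ≠ 1 := fun h => hg (hker.2 ⟨hl, hr, h⟩)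
      let q : Q := Multiplicative.ofAdd 1
      have hY : q ≠ 1 := fun h => by simpa using ofAdd_eq_one.1 h
      let h : Twist e := ⟨RegularWreathProduct.inl q, 1, 1⟩
      have hleft : ∀ x, (⁅g, h⁆ : Twist e).base.left x =
          g.base.left x * (g.base.left (q⁻¹ * x))⁻¹ := by
        intro x
        simp [h, commutatorElement_def, hr]
      have hc : ⁅g, h⁆ ∈ π'.ker := hker.2 ⟨fun x => by
        rw [hleft]; exact mul_mem (hl _) (inv_mem (hl _)),
        by simp [h, commutatorElement_def, hr], by simp [h, commutatorElement_def]⟩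
      refine ⟨h, hc, ?_⟩
      have h1 : ∀ x, t ⟨_, hc⟩ x = (⟨g.base.left x, hl x⟩ : π.ker) *
          ⟨g.base.left (q⁻¹ * x), hl _⟩⁻¹ := fun x => Subtype.ext (hleft x)
      show ((⁅g, h⁆ : Twist e).cst : ℂˣ) * ∏ x, ι (t ⟨_, hc⟩ x) ≠ 1
      have h2 : ∏ x, ι (t ⟨_, hc⟩ x) = 1 := by
        simp only [h1, map_mul, map_inv, Finset.prod_mul_distrib, Finset.prod_inv_distrib]
        rw [mul_inv_eq_one]
        exact (Equiv.prod_comp (Equiv.mulLeft q⁻¹) fun x => ι ⟨g.base.left x, hl x⟩).symm
      simp only [h2, mul_one, ne_eq, OneMemClass.coe_eq_one]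
      intro h3
      apply he1 _ _ ha hY
      have h4 : (⁅g, h⁆ : Twist e).cst = e g.act (RegularWreathProduct.inl q) := by
        have : ∀ j, e j g.base = 1 := fun j => he0 _ _ hr
        simp [h, commutatorElement_def, this, mul_comm, mul_left_comm]
      rw [h4] at h3
      exact h3
    · obtain ⟨x0, hx0⟩ := not_forall.1 hl
      obtain ⟨k, hk, hk1⟩ := hgood _ hx0
      classical
      let h : Twist e := ⟨⟨Pi.mulSingle x0 k, 1⟩, 1, 1⟩
      have hleft : ∀ x, (⁅g, h⁆ : Twist e).base.left x =
          if x = x0 then ⁅g.base.left x0, k⁆ else 1 := by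
        intro x
        simp only [h, commutatorElement_def, Twist.mul_base, Twist.inv_base,
          RegularWreathProduct.mul_left, RegularWreathProduct.inv_left, hr, Pi.mul_apply,
          RegularWreathProduct.mul_right, RegularWreathProduct.inv_right]
        split_ifs with hx
        · subst hx; simp [mul_assoc]
        · simp [hx, mul_assoc]
      have hc : ⁅g, h⁆ ∈ π'.ker := hker.2 ⟨fun x => by
        rw [hleft]; split_ifs
        exacts [hk, π.ker.one_mem],
        by simp [h, commutatorElement_def, hr], by simp [h, commutatorElement_def]⟩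
      refine ⟨h, hc, ?_⟩
      have h1 : ∀ x, ι (t ⟨_, hc⟩ x) = if x = x0 then ι ⟨_, hk⟩ else 1 := fun x => by
        split_ifs with hx
        · exact congrArg ι (Subtype.ext ((hleft x).trans (if_pos hx)))
        · rw [← map_one ι]
          exact congrArg ι (Subtype.ext ((hleft x).trans (if_neg hx)))
      show ((⁅g, h⁆ : Twist e).cst : ℂˣ) * ∏ x, ι (t ⟨_, hc⟩ x) ≠ 1
      have h4 : (⁅g, h⁆ : Twist e).cst = 1 := by
        have h5 : ∀ (j : Q) (w : H ≀ᵣ Q), w.right = 1 → e j w = 1 := he0
        simp [h, commutatorElement_def, h5, hr, mul_comm]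
      rw [h4, Finset.prod_eq_single x0 (fun x _ hx => (h1 x).trans (if_neg hx))
        (fun h => absurd (Finset.mem_univ _) h), h1, if_pos rfl]
      simpa using hk1

end step

end CfsgLib.SolvableEmbed
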